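import Cfsg.Agent.AltCent.Fixed
import Cfsg.Agent.AltCent.TwoPair.Data

/-! # TwoPair: coset representatives (generated certificate data) -/

set_option autoImplicit false
set_option maxRecDepth 100000
set_option maxHeartbeats 4000000

namespace CfsgLib.AltCent.TwoPair

def rWords0 : List (List ℕ) := [[], [1603, 1892], [1651, 1380], [1074], [1842, 1396], [834, 1107], [834, 1651, 1380]]

def rWords : List (List ℕ) := rWords0

theorem reps_ok : (Nat.beq rWords.length cR && repsOK 9 tR 0 rWords) = true := by decide +kernel

end CfsgLib.AltCent.TwoPair
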