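import Cfsg.Agent.AltCent.Fixed
import Cfsg.Agent.AltCent.TwoPair.Data

/-! # TwoPair: terms 0 (generated certificate data) -/

set_option autoImplicit false
set_option maxRecDepth 100000
set_option maxHeartbeats 4000000

namespace CfsgLib.AltCent.TwoPair

def terms0 : List Term :=
  [⟨[1120, 833, 882, 1875], 653440276230, 1, 1, [(5, 323, 6), (5, 521, 0), (3, 534, 0), (1, 38, 0), (6, 362, 0)]⟩,
   ⟨[1392, 593, 866, 1603], 654196295175, 1, 1, [(2, 335, 0), (1, 235, 0), (0, 488, 0), (1, 530, 2), (1, 209, 1)]⟩,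
   ⟨[848, 1121, 882], 652905359205, 1, 1, [(2, 207, 0), (6, 199, 7), (6, 227, 2), (6, 435, 3), (1, 114, 2)]⟩,
   ⟨[1616, 609, 1842, 1892], 653932000005, 0, 1, [(5, 221, 5), (4, 258, 0), (4, 46, 3), (6, 52, 2), (6, 486, 0), (5, 47, 7), (1, 406, 1), (6, 183, 8), (3, 460, 1), (6, 203, 3)]⟩]

theorem terms0_ok : termsOK 9 bases tR cR T B terms0 = true := by decide +kernel

end CfsgLib.AltCent.TwoPair
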