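import Cfsg.Agent.AltCent.Fixed
import Cfsg.Agent.AltCent.TwoPair.Data
import Cfsg.Agent.AltCent.TwoPair.Reps
import Cfsg.Agent.AltCent.TwoPair.Terms0

/-! # TwoPair: conclusion (generated certificate data) -/

set_option autoImplicit false
set_option maxRecDepth 100000
set_option maxHeartbeats 4000000

namespace CfsgLib.AltCent.TwoPair

def terms : List Term := terms0

theorem sum_ok : eqMod 2 (termPairs 2 bases T B terms) [(0, 1)] [(1, 3), (2, 1), (3, 1), (4, 1), (5, 2), (6, 4)] [] = true := by decide +kernel

theorem terms_ok : termsOK 9 bases tR cR T B terms = true := terms0_ok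

variable {V : Type*} [AddCommGroup V] [DistribMulAction (alternatingGroup (Fin 9)) V]

/-- The table acts by scalars as soon as its generators do. -/
theorem acts (hp : ∀ x : V, 2 • x = 0) (v : V)
    (hg : ∀ g ∈ gens, el 9 g.1 • v = g.2 • v) : Acts (n := 9) v B := by
  have z := zero_ok
  simp only [Bool.and_eq_true] at z
  refine acts_of_actsOK (by norm_num) hp v B gens (fun g hgm => ⟨?_, hg g hgm⟩) steps
    (Nat.eq_of_beq_eq_true z.1.1) (Nat.eq_of_beq_eq_true z.1.2) steps_ok
  have hr := goodTab_of_repsOK genWords rfl gens_ok
  simp only [gens, List.mem_cons, List.not_mem_nil, or_false] at hgm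
  rcases hgm with rfl | rfl | rfl | rfl | rfl | rfl | rfl
  · exact (show get 0x9856743120987564312098321076549854763210987645320198765410329876542301 0 = 654820254465 by decide +kernel) ▸ hr 0 (by decide)
  · exact (show get 0x9856743120987564312098321076549854763210987645320198765410329876542301 1 = 654820249650 by decide +kernel) ▸ hr 1 (by decide)
  · exact (show get 0x9856743120987564312098321076549854763210987645320198765410329876542301 2 = 654819275265 by decide +kernel) ▸ hr 2 (by decide)
  · exact (show get 0x9856743120987564312098321076549854763210987645320198765410329876542301 3 = 654252061200 by decide +kernel) ▸ hr 3 (by decide)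
  · exact (show get 0x9856743120987564312098321076549854763210987645320198765410329876542301 4 = 653674968660 by decide +kernel) ▸ hr 4 (by decide)
  · exact (show get 0x9856743120987564312098321076549854763210987645320198765410329876542301 5 = 654804529440 by decide +kernel) ▸ hr 5 (by decide)
  · exact (show get 0x9856743120987564312098321076549854763210987645320198765410329876542301 6 = 654285484320 by decide +kernel) ▸ hr 6 (by decide)

/-- No nonzero vector satisfies the hypotheses. -/
theorem eq_zero (hp : ∀ x : V, 2 • x = 0) (hX : NoFix 9 V) (v : V)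
    (hg : ∀ g ∈ gens, el 9 g.1 • v = g.2 • v) : v = 0 := by
  have hB := acts hp v hg
  have z := zero_ok
  have hR := reps_ok
  simp only [Bool.and_eq_true] at z hR
  have hb : ∀ b ∈ bases, GoodTab 9 b.tbl b.cnt ∧ bval (n := 9) v b = 0 := by
    intro b hb
    simp only [bases, List.mem_append, List.mem_cons, List.not_mem_nil, or_false] at hb
    rcases hb with (hf | hb) | rfl
    · exact hf.elim
    · exact fixesOK_spec (by norm_num) hp hX hB fixes fixes_ok b hb
    · exact trivBase_spec (by norm_num) hp (by norm_num) v
  have hT : GoodTab 9 T.tbl T.cnt := by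
    have hs := sub_ok
    simp only [subOK, Bool.and_eq_true, List.all_eq_true, List.mem_range, Nat.blt_eq] at hs
    intro k hk
    rw [Nat.eq_of_beq_eq_true (hs.2 k hk).1.1.2]
    exact hB.good _ (hs.2 k hk).1.1.1
  exact eq_zero_of_cert (by norm_num) hp hB sub_ok (by decide) (Nat.eq_of_beq_eq_true z.2)
    (termsOK_spec (by norm_num) hp hB hT tau_ok
      (goodTab_of_repsOK rWords (Nat.eq_of_beq_eq_true hR.1) hR.2) (fun b h => (hb b h).1)
      (fun b h => (hb b h).2) terms terms_ok) sum_ok

end CfsgLib.AltCent.TwoPair
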